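import Cfsg.Agent.Lib.Misc.Heis
import Cfsg.Agent.Lib.Suzuki.HigField

/-! 2-groups with an involutory automorphism whose fixed points are permuted transitively. -/

set_option autoImplicit false

namespace Cfsg.Lib.InvAut

open Subgroup Cfsg.Lib.Suz
open scoped commutatorElement

universe u

section field

variable {F : Type*} [Field F] [Fintype F] {s : F →+* F}

theorem exists_sqrt (h2 : (2 : F) = 0) : ∃ s : F →+* F, ∀ x, s x * s x = x := by
  haveI : Fact (Nat.Prime 2) := ⟨Nat.prime_two⟩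
  haveI : CharP F 2 := (CharP.charP_iff_prime_eq_zero Nat.prime_two).2 h2
  exact ⟨(frobeniusEquiv F 2).symm, fun x => by
    simpa [sq] using frobeniusEquiv_symm_pow_p F 2 x⟩

theorem weight (h2 : (2 : F) = 0) (hs : ∀ x, s x * s x = x) (Γ : F → F → F)
    (h1 : ∀ x x' y, Γ (x + x') y = Γ x y + Γ x' y) (h1' : ∀ x y y', Γ x (y + y') = Γ x y + Γ x y')
    (h : ∀ u x y, Γ (u * x) (u * y) = u * Γ x y) (x y : F) : Γ x y = s x * s y * Γ 1 1 := by
  classical
  haveI : Fact (Nat.Prime 2) := ⟨Nat.prime_two⟩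
  haveI : CharP F 2 := (CharP.charP_iff_prime_eq_zero Nat.prime_two).2 h2
  obtain ⟨n, -, hn⟩ := FiniteField.card F 2
  have : Finite (F →+* F) := DFunLike.finite _
  have := Fintype.ofFinite (F →+* F)
  let Γ' : F →+ F →+ F := AddMonoidHom.mk' (fun x => AddMonoidHom.mk' (Γ x) (h1' x))
    fun x x' => AddMonoidHom.ext (h1 x x')
  obtain ⟨e, he, hw⟩ := exists_weights hn Γ' (MonoidHom.id _) (MonoidHom.id _) fun u x y => h u x y
  have key : ∀ a, Γ 1 a = e s * s a := fun a => by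
    refine (he a).trans (Finset.sum_eq_single s (fun θ _ hθ => ?_) (by simp))
    by_contra hne
    obtain ⟨η, hη⟩ := hw θ (left_ne_zero_of_mul hne)
    have hη' : ∀ x, η x * θ x = s x * s x := fun x => by
      by_cases hx : x = 0
      · simp [hx]
      · rw [hs]; exact (hη (Units.mk0 x hx)).symm
    by_cases e : η = θ
    · refine hθ (RingHom.ext fun x => ?_)
      have := hη' x
      rw [e] at this
      have : (θ x - s x) ^ 2 = 0 := by linear_combination this + (s x * s x - θ x * s x) * h2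
      exact sub_eq_zero.1 (pow_eq_zero_iff two_ne_zero |>.1 this)
    · rcases hom_prod_two hη' e with h | h <;> exact hθ h.2
  by_cases hx : x = 0
  · have := h1 0 0 y
    rw [add_zero, left_eq_add] at this
    simp [hx, this]
  · have := h x 1 (y / x)
    have hsx : s x ≠ 0 := by simpa using hx
    rw [mul_one, mul_div_cancel₀ _ hx] at this
    rw [this, key, key, map_div₀, map_one]
    field_simp
    rw [sq, hs]; ring

end field

theorem exfix {Q : Type*} [Group Q] [Finite Q] [Nontrivial Q] (hQ : IsPGroup 2 Q) {α : Q →* Q}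
    (h : ∀ x, α (α x) = x) : ∃ z ∈ center Q, z ≠ 1 ∧ α z = z := by
  haveI : Fact (Nat.Prime 2) := ⟨Nat.prime_two⟩
  haveI := hQ.center_nontrivial
  obtain ⟨n, hn0, hn⟩ := (hQ.to_subgroup (center Q)).nontrivial_iff_card.1 inferInstance
  obtain ⟨z, hz⟩ := exists_prime_orderOf_dvd_card' (G := center Q) 2 (hn ▸ dvd_pow_self 2 hn0.ne')
  rw [← orderOf_coe, h9_orderOf_eq_two_iff] at hz
  have hα : α z ∈ center Q := mem_center_iff.2 fun g => by
    rw [← h g, ← map_mul, ← map_mul, mem_center_iff.1 z.2]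
  by_cases e : (z : Q) * α z = 1
  · exact ⟨z, z.2, hz.1, mul_left_cancel (e.trans hz.2.symm)⟩
  · exact ⟨_, mul_mem z.2 hα, e, by rw [map_mul, h, mem_center_iff.1 z.2]⟩

theorem cml {Q : Type*} [Group Q] (u : Q) {v w : Q} (h : ⁅v, w⁆ ∈ center Q) :
    ⁅u * v, w⁆ = ⁅u, w⁆ * ⁅v, w⁆ := by
  calc ⁅u * v, w⁆ = u * ⁅v, w⁆ * u⁻¹ * ⁅u, w⁆ := by simp only [commutatorElement_def]; group
    _ = _ := by rw [mem_center_iff.1 h u, mem_center_iff.1 h]; group

theorem cmr {Q : Type*} [Group Q] {u : Q} (v : Q) {w : Q} (h : ⁅u, w⁆ ∈ center Q) :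
    ⁅u, v * w⁆ = ⁅u, v⁆ * ⁅u, w⁆ := by
  calc ⁅u, v * w⁆ = ⁅u, v⁆ * (v * ⁅u, w⁆ * v⁻¹) := by simp only [commutatorElement_def]; group
    _ = _ := by rw [mem_center_iff.1 h v]; group

theorem cm_cen {Q : Type*} [Group Q] (u w : Q) {v : Q} (h : v ∈ center Q) :
    ⁅u * v, w⁆ = ⁅u, w⁆ ∧ ⁅w, u * v⁆ = ⁅w, u⁆ := by
  have h1 : ⁅v, w⁆ = 1 := commutatorElement_eq_one_iff_mul_comm.2 (mem_center_iff.1 h w).symm
  have h2 : ⁅w, v⁆ = 1 := commutatorElement_eq_one_iff_mul_comm.2 (mem_center_iff.1 h w)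
  rw [cml u (h1 ▸ one_mem _), cmr u (h2 ▸ one_mem _), h1, h2, mul_one, mul_one]
  exact ⟨rfl, rfl⟩

/-- the setting -/
structure St {Q : Type*} [Group Q] {F : Type*} [Field F] (α : Q →* Q) (k : F → Q →* Q) (a : F → Q) :
    Prop where
  pg : IsPGroup 2 Q
  two : (2 : F) = 0
  αα : ∀ x, α (α x) = x
  k0 : ∀ g, k 0 g = 1
  k1 : ∀ g, k 1 g = g
  kk : ∀ c d g, k c (k d g) = k (c * d) g
  αk : ∀ c g, α (k c g) = k c (α g)
  a_add : ∀ x y, a (x + y) = a x * a y
  a_inj : Function.Injective a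
  fix : ∀ x, α x = x ↔ ∃ y, a y = x
  act : ∀ c y, k c (a y) = a (c * y)

/-- the fixed points -/
abbrev fx {Q : Type*} [Group Q] (α : Q →* Q) : Subgroup Q := α.eqLocus (MonoidHom.id Q)

namespace St

variable {Q : Type u} [Group Q] {F : Type*} [Field F] {α : Q →* Q} {k : F → Q →* Q} {a : F → Q}
  (h : St α k a)
include h

theorem a0 : a 0 = 1 := by simpa using h.a_add 0 0
theorem add_self (y : F) : y + y = 0 := by linear_combination y * h.two
theorem aa (y : F) : a y * a y = 1 := by rw [← h.a_add, h.add_self, h.a0]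
theorem a_inv (y : F) : (a y)⁻¹ = a y := inv_eq_of_mul_eq_one_right (h.aa y)
theorem a_eq_one {y : F} : a y = 1 ↔ y = 0 := by rw [← h.a0, h.a_inj.eq_iff]
theorem αa (y : F) : α (a y) = a y := (h.fix _).2 ⟨y, rfl⟩
theorem mem {x : Q} : x ∈ fx α ↔ ∃ y, a y = x := h.fix x
theorem card [Fintype F] : Nat.card (fx α) = Fintype.card F := by
  rw [← Nat.card_eq_fintype_card]
  exact (Nat.card_eq_of_bijective (fun y => (⟨a y, h.αa y⟩ : fx α))
    ⟨fun x y e => h.a_inj (congrArg Subtype.val e), fun x => by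
      obtain ⟨y, hy⟩ := h.mem.1 x.2
      exact ⟨y, Subtype.ext hy⟩⟩).symm

theorem kd (c : F) (g : Q) : (k c g)⁻¹ * α (k c g) = k c (g⁻¹ * α g) := by
  rw [h.αk, map_mul, map_inv]

theorem defect {e : Q} {n : F} (he : e * e = a n) (hc : ∀ x y, k x e * k y e = k y e * k x e)
    (hz : ∀ y x, a y * k x e = k x e * a y) {x y z : F} (H : k x e * k y e = k (x + y) e * a z) :
    k (x * x) e * k (y * y) e = k (x * x + y * y) e * a (x * y * n) := by
  have e1 := congrArg (k x) H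
  have e2 := congrArg (k y) H
  have e3 := congrArg (k (x + y)) H
  have e4 := congrArg (k (x * y)) he
  simp only [map_mul, h.kk, h.act] at e1 e2 e3 e4
  rw [show (x + y) * (x + y) = x * x + y * y by linear_combination x * y * h.two, mul_comm (x + y),
    mul_comm (x + y)] at e3
  rw [mul_comm y x] at e2
  rw [← h.a_inv (x * y * n), eq_mul_inv_iff_mul_eq, ← e4]
  calc _ = k (x * x) e * k (x * y) e * (k (x * y) e * k (y * y) e) := by
        rw [mul_assoc, mul_assoc, ← mul_assoc (k (y * y) e), hc (y * y), mul_assoc, hc (y * y)]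
    _ = k (x * (x + y)) e * k (y * (x + y)) e * a ((x + y) * z) := by
        rw [e1, e2, add_mul, h.a_add, mul_assoc, ← mul_assoc (a _), hz]; simp only [mul_assoc]
    _ = _ := by rw [e3, mul_assoc, h.aa, mul_one]

variable [Finite Q]

theorem cen (y : F) : a y ∈ center Q := by
  haveI : Nontrivial Q := ⟨a 1, 1, fun e => one_ne_zero (h.a_eq_one.1 e)⟩
  obtain ⟨z, hz, z1, hα⟩ := exfix h.pg h.αα
  obtain ⟨y0, rfl⟩ := (h.fix z).1 hα
  by_cases hy : y = 0
  · rw [hy, h.a0]; exact one_mem _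
  have h0 : y0 ≠ 0 := fun e => z1 (h.a_eq_one.2 e)
  refine mem_center_iff.2 fun g => ?_
  have := congrArg (k (y / y0)) (mem_center_iff.1 hz (k (y0 / y) g))
  rwa [map_mul, map_mul, h.kk, h.act, div_mul_cancel₀ _ h0, show y / y0 * (y0 / y) = 1 by field_simp,
    h.k1] at this

theorem ac (y : F) (g : Q) : a y * g = g * a y := (mem_center_iff.1 (h.cen y) g).symm

theorem le_cen : fx α ≤ center Q := fun x hx => by
  obtain ⟨y, rfl⟩ := h.mem.1 hx
  exact h.cen y

theorem normal : (fx α).Normal := ⟨fun x hx g => by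
  rw [mem_center_iff.1 (h.le_cen hx) g]; simpa using hx⟩

theorem d_mul {x : Q} {y : F} (hx : x⁻¹ * α x = a y) (g : Q) :
    (x * g)⁻¹ * α (x * g) = a y * (g⁻¹ * α g) := by
  rw [map_mul, ← mul_assoc (a y), h.ac, ← hx]; group

theorem d_eq {x g : Q} {y : F} (hx : x⁻¹ * α x = a y) (hg : g⁻¹ * α g = a y) : ∃ z, g = x * a z := by
  obtain ⟨z, hz⟩ := (h.fix (x⁻¹ * g)).1 (by
    rw [map_mul, map_inv, inv_mul_eq_iff_eq_mul.1 hx, inv_mul_eq_iff_eq_mul.1 hg, ← h.ac y g,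
      ← h.ac y x]; group)
  exact ⟨z, by rw [hz]; group⟩

theorem quot [(fx α).Normal] (hne : ∃ x, α x ≠ x) :
    ∃ (α' : Q ⧸ fx α →* Q ⧸ fx α) (k' : F → Q ⧸ fx α →* Q ⧸ fx α) (w : Q),
      (∀ g : Q, α' g = α g) ∧ (∀ c (g : Q), k' c g = k c g) ∧ w⁻¹ * α w = a 1 ∧
        St α' k' fun y => k y w := by
  let α' : Q ⧸ fx α →* Q ⧸ fx α := QuotientGroup.map _ _ α fun x hx => congrArg α hx
  let k' : F → Q ⧸ fx α →* Q ⧸ fx α := fun c => QuotientGroup.map _ _ (k c) fun x hx =>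
    (h.αk c x).trans (congrArg (k c) hx)
  have hα' : ∀ x, α' (α' x) = x := fun x => by
    induction x using QuotientGroup.induction_on with | _ x => exact congrArg _ (h.αα x)
  have fx' : ∀ x : Q, α' x = x ↔ ∃ y, x⁻¹ * α x = a y := fun x => by
    rw [eq_comm]
    change ((x : Q ⧸ fx α) = (α x : Q)) ↔ _
    rw [QuotientGroup.eq, h.mem]
    simp only [eq_comm]
  obtain ⟨w, hw⟩ : ∃ w, w⁻¹ * α w = a 1 := by
    obtain ⟨x, hx⟩ := hne
    haveI : Nontrivial (Q ⧸ fx α) := ⟨x, 1, fun e => hx ((QuotientGroup.eq_one_iff _).1 e)⟩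
    obtain ⟨z, -, z1, hz⟩ := exfix (h.pg.to_quotient _) hα'
    induction z using QuotientGroup.induction_on with | _ z =>
    obtain ⟨y, hy⟩ := (fx' z).1 hz
    have : y ≠ 0 := fun e => z1 ((QuotientGroup.eq_one_iff _).2 (by
      rw [e, h.a0, inv_mul_eq_one] at hy; exact hy.symm))
    exact ⟨k y⁻¹ z, by rw [h.kd, hy, h.act, inv_mul_cancel₀ this]⟩
  have hw' : ∀ y, (k y w)⁻¹ * α (k y w) = a y := fun y => by rw [h.kd, hw, h.act, mul_one]
  have eq : ∀ {x g y}, x⁻¹ * α x = a y → g⁻¹ * α g = a y → (g : Q ⧸ fx α) = x := fun hx hg => by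
    obtain ⟨z, rfl⟩ := h.d_eq hx hg
    exact QuotientGroup.mk_mul_of_mem _ (h.αa z)
  refine ⟨α', k', w, fun _ => rfl, fun _ _ => rfl, hw, h.pg.to_quotient _, h.two, hα', fun g => ?_,
    fun g => ?_, fun c d g => ?_, fun c g => ?_, fun x y => ?_, fun x y e => ?_, fun g => ?_, fun c y => ?_⟩
  · induction g using QuotientGroup.induction_on with | _ g => exact congrArg _ (h.k0 g)
  · induction g using QuotientGroup.induction_on with | _ g => exact congrArg _ (h.k1 g)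
  · induction g using QuotientGroup.induction_on with | _ g => exact congrArg _ (h.kk c d g)
  · induction g using QuotientGroup.induction_on with | _ g => exact congrArg _ (h.αk c g)
  · exact eq (by rw [h.d_mul (hw' x), hw', ← h.a_add]) (hw' (x + y))
  · obtain ⟨z, hz⟩ := h.mem.1 (QuotientGroup.eq.1 e)
    have := h.d_mul (hw' x) (a z)
    rw [hz, mul_inv_cancel_left, hw', ← hz, h.αa, inv_mul_cancel, mul_one] at this
    exact (h.a_inj this).symm
  · induction g using QuotientGroup.induction_on with | _ g =>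
    rw [fx']
    refine ⟨fun ⟨y, hy⟩ => ⟨y, eq hy (hw' y)⟩, fun ⟨y, e⟩ => ⟨y, ?_⟩⟩
    obtain ⟨z, hz⟩ := h.mem.1 (QuotientGroup.eq.1 e)
    have := h.d_mul (hw' y) (a z)
    rwa [hz, mul_inv_cancel_left, ← hz, h.αa, inv_mul_cancel, mul_one] at this
  · exact congrArg _ (h.kk c y w)

variable [Fintype F] {s : F →+* F}

/-- the coordinate on the fixed points -/
theorem exists_coord {ι : Type*} {f : ι → Q} (hf : ∀ i, α (f i) = f i) : ∃ c : ι → F, ∀ i, a (c i) = f i := by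
  choose c hc using fun i => (h.fix _).1 (hf i)
  exact ⟨c, hc⟩

theorem bil (hs : ∀ x, s x * s x = x) {g l : Q} {b : F} (hb : ⁅g, l⁆ = a b)
    (hf : ∀ x y, α ⁅k x g, k y l⁆ = ⁅k x g, k y l⁆)
    (h1 : ∀ x x' y, ⁅k (x + x') g, k y l⁆ = ⁅k x g * k x' g, k y l⁆)
    (h2 : ∀ x y y', ⁅k x g, k (y + y') l⁆ = ⁅k x g, k y l * k y' l⁆) (x y : F) :
    ⁅k x g, k y l⁆ = a (s x * s y * b) := by
  obtain ⟨c, hc⟩ := h.exists_coord (f := fun p : F × F => ⁅k p.1 g, k p.2 l⁆) fun p => hf _ _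
  have := weight h.two hs (fun x y => c (x, y))
    (fun x x' y => h.a_inj (by rw [h.a_add, hc, hc, hc, h1, cml _ (h.le_cen (hf _ _))]))
    (fun x y y' => h.a_inj (by rw [h.a_add, hc, hc, hc, h2, cmr _ (h.le_cen (hf _ _))]))
    (fun u x y => h.a_inj (by rw [← h.act, hc, hc, map_commutatorElement, h.kk, h.kk])) x y
  have e : c (1, 1) = b := h.a_inj (by rw [hc, h.k1, h.k1, hb])
  rw [← e, ← this, hc]

theorem add_of (hs : ∀ x, s x * s x = x) {e : Q} {n : F} (he : e * e = a n)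
    (hc : ∀ x y, k x e * k y e = k y e * k x e) (H : ∀ x y, ∃ z, k x e * k y e = k (x + y) e * a z)
    (x y : F) : k x e * k y e = k (x + y) e * a (s x * s y * n) := by
  obtain ⟨z, hz⟩ := H (s x) (s y)
  simpa only [hs] using h.defect he hc (fun y x => h.ac y _) hz

theorem elem_add (hs : ∀ x, s x * s x = x) (hc : ∀ u v : Q, u * v = v * u) (h2 : ∀ u : Q, u * u = 1)
    (x y : F) (e : Q) : k (x + y) e = k x e * k y e := by
  obtain ⟨d, hd⟩ := (h.fix (e⁻¹ * α e)).1 (by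
    rw [map_mul, map_inv, h.αα, ← inv_eq_of_mul_eq_one_right (h2 (e⁻¹ * α e))]; group)
  have hd' : ∀ x, (k x e)⁻¹ * α (k x e) = a (x * d) := fun x => by rw [h.kd, ← hd, h.act]
  have := h.add_of hs ((h2 e).trans h.a0.symm) (fun _ _ => hc _ _) (fun x y => h.d_eq (hd' (x + y))
    (by rw [h.d_mul (hd' x), hd', ← h.a_add, add_mul])) x y
  rw [this, mul_zero, h.a0, mul_one]

omit [Fintype F] in
/-- if an element of order two has its `α`-commutator fixed, all such elements have order two -/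
theorem sq_of {w g : Q} {x y : F} (hw : w⁻¹ * α w = a x) (hx : x ≠ 0) (h2 : w * w = 1)
    (hg : g⁻¹ * α g = a y) : g * g = 1 := by
  obtain ⟨z, rfl⟩ := h.d_eq (x := k (y / x) w) (by rw [h.kd, hw, h.act, div_mul_cancel₀ _ hx]) hg
  rw [mul_assoc, ← mul_assoc (a z), h.ac, mul_assoc, h.aa, mul_one, ← map_mul, h2, map_one]

theorem card_eq [(fx α).Normal] : Nat.card Q = Nat.card (Q ⧸ fx α) * Fintype.card F := by
  rw [card_eq_card_quotient_mul_card_subgroup (fx α), h.card]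

theorem ab (hc : ∀ u v : Q, u * v = v * u) :
    (∃ e : Q, (∀ g, ∃ x v, g = k x e * (v * v)) ∧ ∀ x y, ∃ v, k (x + y) e = k x e * k y e * (v * v)) ∨
    ((∀ u : Q, u * u = 1) ∧ Nat.card Q = Fintype.card F ^ 2) := by
  letI : CommGroup Q := { (inferInstance : Group Q) with mul_comm := hc }
  by_cases H : ∀ w : Q, w * w = 1 → α w = w
  · left
    obtain ⟨m, hm⟩ := isPGroup_iff_exists_pow_pow_eq_one.1 h.pg
    have ex : ∃ j, ∀ g : Q, g ^ 2 ^ (j + 1) = 1 := ⟨m, fun g => by rw [pow_succ, pow_mul, hm, one_pow]⟩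
    obtain ⟨j, hj, hj'⟩ : ∃ j, (∀ g : Q, g ^ 2 ^ (j + 1) = 1) ∧ ∃ g : Q, g ^ 2 ^ j ≠ 1 := by
      classical
      refine ⟨Nat.find ex, Nat.find_spec ex, ?_⟩
      rcases hn : Nat.find ex with _ | j
      · exact ⟨a 1, by simp [h.a_eq_one]⟩
      · simpa using Nat.find_min ex (show j < Nat.find ex by omega)
    obtain ⟨π, hπ⟩ := h.exists_coord (f := fun g : Q => g ^ 2 ^ j) fun g =>
      H _ (by rw [← pow_add, ← mul_two, ← pow_succ, hj])
    have πm : ∀ g g', π (g * g') = π g + π g' := fun g g' => h.a_inj (by rw [h.a_add, hπ, hπ, hπ, mul_pow])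
    have πk : ∀ c g, π (k c g) = c * π g := fun c g => h.a_inj (by rw [← h.act, hπ, hπ, map_pow])
    obtain ⟨e, he⟩ : ∃ e, π e = 1 := by
      obtain ⟨g, hg⟩ := hj'
      have : π g ≠ 0 := fun e => hg (by rw [← hπ, e, h.a0])
      exact ⟨k (π g)⁻¹ g, by rw [πk, inv_mul_cancel₀ this]⟩
    have e1 : (powMonoidHom 2 : Q →* Q).ker = fx α := by
      ext x
      refine ⟨fun hx => H x (by simpa [sq] using hx), fun hx => ?_⟩
      obtain ⟨y, rfl⟩ := h.mem.1 hx
      simpa [sq] using h.aa y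
    have e2 : (powMonoidHom (2 ^ j) : Q →* Q).range = fx α := by
      ext x
      refine ⟨?_, fun hx => ?_⟩
      · rintro ⟨g, rfl⟩
        exact h.mem.2 ⟨_, hπ g⟩
      · obtain ⟨y, rfl⟩ := h.mem.1 hx
        exact ⟨k y e, by rw [powMonoidHom_apply, ← hπ, πk, he, mul_one]⟩
    have e3 : (powMonoidHom 2 : Q →* Q).range = (powMonoidHom (2 ^ j) : Q →* Q).ker := by
      refine eq_of_le_of_card_ge ?_ (le_of_eq ?_)
      · rintro _ ⟨g, rfl⟩
        rw [MonoidHom.mem_ker, powMonoidHom_apply, powMonoidHom_apply, ← pow_mul, ← pow_succ', hj]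
      · have c1 := (powMonoidHom 2 : Q →* Q).ker.index_mul_card
        have c2 := (powMonoidHom (2 ^ j) : Q →* Q).ker.index_mul_card
        rw [index_ker, e1] at c1
        rw [index_ker, e2, mul_comm, ← c1] at c2
        exact Nat.eq_of_mul_eq_mul_right Nat.card_pos c2
    have key : ∀ g g', π g = π g' → ∃ v, g = g' * (v * v) := fun g g' hx => by
      have : g'⁻¹ * g ∈ (powMonoidHom (2 ^ j) : Q →* Q).ker := by
        rw [MonoidHom.mem_ker, powMonoidHom_apply, mul_pow, inv_pow, ← hπ, ← hπ, hx, inv_mul_cancel]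
      obtain ⟨v, hv⟩ := e3 ▸ this
      exact ⟨v, by rw [← sq, ← powMonoidHom_apply, hv, mul_inv_cancel_left]⟩
    exact ⟨e, fun g => ⟨π g, key _ _ (by rw [πk, he, mul_one])⟩,
      fun x y => key _ _ (by rw [πm, πk, πk, πk, add_mul])⟩
  · right
    push Not at H
    obtain ⟨w, w2, hw⟩ := H
    haveI := h.normal
    obtain ⟨α', k', w1, hα', -, hw1, h'⟩ := h.quot ⟨w, hw⟩
    have dd : ∀ g : Q, g⁻¹ * α g * (g⁻¹ * α g) = 1 → ∃ y, g⁻¹ * α g = a y := fun g hg => by
      obtain ⟨y, hy⟩ := (h.fix (g⁻¹ * α g)).1 (by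
        rw [map_mul, map_inv, h.αα, ← inv_eq_of_mul_eq_one_right hg]; group)
      exact ⟨y, hy.symm⟩
    obtain ⟨x, hx⟩ := dd w (by rw [mul_mul_mul_comm, ← map_mul, ← mul_inv, w2]; simp)
    have hx0 : x ≠ 0 := fun e => hw (by rw [e, h.a0, inv_mul_eq_one] at hx; exact hx.symm)
    have fx' : ∀ g : Q, α' g = g ↔ ∃ y, g⁻¹ * α g = a y := fun g => by
      rw [hα', eq_comm, QuotientGroup.eq, h.mem]; simp only [eq_comm]
    have all : ∀ g, α' g = g := by
      by_contra hne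
      haveI := h'.normal
      obtain ⟨α2, k2, w2', -, -, hw2, -⟩ := h'.quot (not_forall.1 hne)
      induction w2' using QuotientGroup.induction_on with | _ g =>
      rw [hα', ← QuotientGroup.mk_inv, ← QuotientGroup.mk_mul] at hw2
      obtain ⟨y, hy⟩ := (fx' (g⁻¹ * α g)).1 (by rw [hw2]; exact h'.αa 1)
      obtain ⟨z, hz⟩ := dd g (h.sq_of hx hx0 w2 hy)
      rw [hz, (QuotientGroup.eq_one_iff _).2 (h.αa z), eq_comm, h'.a_eq_one] at hw2
      exact one_ne_zero hw2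
    refine ⟨fun u => ?_, ?_⟩
    · obtain ⟨y, hy⟩ := (fx' u).1 (all u)
      exact h.sq_of hx hx0 w2 hy
    · rw [h.card_eq, ← h'.card, show fx α' = ⊤ from eq_top_iff.2 fun g _ => all g, card_top, sq]

end St

/-- the special case -/
structure Sp {Q : Type*} [Group Q] (F : Type*) [Fintype F] (α : Q →* Q) : Prop where
  cm : ∀ u v : Q, α ⁅u, v⁆ = ⁅u, v⁆
  sq : ∀ u, α (u * u) = u * u
  card : Nat.card Q = Fintype.card F ^ 3
  na : ∃ u v : Q, ⁅u, v⁆ ≠ 1

namespace St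

variable {Q : Type u} [Group Q] {F : Type*} [Field F] {α : Q →* Q} {k : F → Q →* Q} {a : F → Q}
  (h : St α k a) [Finite Q] [Fintype F] {s : F →+* F}
include h

theorem ne_of {u v : Q} (e : ⁅u, v⁆ ≠ 1) : ∃ x, α x ≠ x := ⟨u, fun e' =>
  e (commutatorElement_eq_one_iff_mul_comm.2 (mem_center_iff.1 (h.le_cen e') v).symm)⟩

theorem lift [(fx α).Normal] {u v : Q} (e : (u : Q ⧸ fx α) = v) : ∃ z, v = u * a z := by
  obtain ⟨z, hz⟩ := h.mem.1 (QuotientGroup.eq.1 e)
  exact ⟨z, by rw [hz]; group⟩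

theorem sp_add (hs : ∀ x, s x * s x = x) (p : Sp F α) (x y : F) (g : Q) :
    ∃ z, k x g * k y g = k (x + y) g * a z := by
  haveI := h.normal
  obtain ⟨u, v, huv⟩ := p.na
  obtain ⟨α', k', w, -, hk, -, h'⟩ := h.quot (h.ne_of huv)
  refine h.lift ?_
  rw [QuotientGroup.mk_mul, ← hk, ← hk, ← hk]
  refine h'.elem_add hs (fun u v => ?_) (fun u => ?_) x y g
  · induction u using QuotientGroup.induction_on with | _ u =>
    induction v using QuotientGroup.induction_on with | _ v =>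
    exact commutatorElement_eq_one_iff_mul_comm.1 ((QuotientGroup.eq_one_iff ⁅u, v⁆).2 (p.cm u v))
  · induction u using QuotientGroup.induction_on with | _ u =>
    exact (QuotientGroup.eq_one_iff (u * u)).2 (p.sq u)

theorem sp_cm (hs : ∀ x, s x * s x = x) (p : Sp F α) {g l : Q} {b : F} (hb : ⁅g, l⁆ = a b) (x y : F) :
    ⁅k x g, k y l⁆ = a (s x * s y * b) := by
  refine h.bil hs hb (fun _ _ => p.cm _ _) (fun x x' y => ?_) (fun x y y' => ?_) x y
  · obtain ⟨z, hz⟩ := h.sp_add hs p x x' g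
    rw [hz, (cm_cen _ _ (h.cen z)).1]
  · obtain ⟨z, hz⟩ := h.sp_add hs p y y' l
    rw [hz, (cm_cen _ _ (h.cen z)).2]

theorem case1 (hs : ∀ x, s x * s x = x) (hc : ∀ u v : Q, α ⁅u, v⁆ = ⁅u, v⁆) (na : ∃ u v : Q, ⁅u, v⁆ ≠ 1) :
    Sp F α := by
  haveI := h.normal
  obtain ⟨u, v, huv⟩ := na
  obtain ⟨α', k', w, -, hk, -, h'⟩ := h.quot (h.ne_of huv)
  have cc : ∀ u v : Q, ⁅u, v⁆ ∈ center Q := fun u v => h.le_cen (hc u v)
  have sqc : ∀ u : Q, u * u ∈ center Q := fun u => mem_center_iff.2 fun g => by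
    obtain ⟨z, hz⟩ := (h.fix _).1 (hc g u)
    rw [← commutatorElement_eq_one_iff_mul_comm, cmr _ (cc _ _), ← hz, h.aa]
  rcases h'.ab (fun u v => by
    induction u using QuotientGroup.induction_on with | _ u =>
    induction v using QuotientGroup.induction_on with | _ v =>
    exact commutatorElement_eq_one_iff_mul_comm.1 ((QuotientGroup.eq_one_iff ⁅u, v⁆).2 (hc u v))) with
    ⟨e, h1, h2⟩ | ⟨h1, h2⟩
  · exfalso
    induction e using QuotientGroup.induction_on with | _ e =>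
    have h1' : ∀ g, ∃ x, ∃ c ∈ center Q, g = k x e * c := fun g => by
      obtain ⟨x, v, hv⟩ := h1 g
      induction v using QuotientGroup.induction_on with | _ v =>
      rw [hk, ← QuotientGroup.mk_mul, ← QuotientGroup.mk_mul] at hv
      obtain ⟨z, hz⟩ := h.lift hv.symm
      exact ⟨x, _, mul_mem (sqc v) (h.cen z), by rw [hz, mul_assoc]⟩
    have h2' : ∀ x y, ∃ c ∈ center Q, k (x + y) e = k x e * k y e * c := fun x y => by
      obtain ⟨v, hv⟩ := h2 x y
      induction v using QuotientGroup.induction_on with | _ v =>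
      rw [hk, hk, hk, ← QuotientGroup.mk_mul, ← QuotientGroup.mk_mul, ← QuotientGroup.mk_mul] at hv
      obtain ⟨z, hz⟩ := h.lift hv.symm
      exact ⟨_, mul_mem (sqc v) (h.cen z), by rw [hz, mul_assoc]⟩
    obtain ⟨x, c, hc1, rfl⟩ := h1' u
    obtain ⟨y, d, hd1, rfl⟩ := h1' v
    rw [(cm_cen _ _ hc1).1, (cm_cen _ _ hd1).2, h.bil hs (b := 0) (by simp [h.a0]) (fun _ _ => hc _ _)
      (fun x x' y => by obtain ⟨c, hc, e⟩ := h2' x x'; rw [e, (cm_cen _ _ hc).1])
      (fun x y y' => by obtain ⟨c, hc, e⟩ := h2' y y'; rw [e, (cm_cen _ _ hc).2]), mul_zero, h.a0] at huv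
    exact huv rfl
  · exact ⟨hc, fun u => (QuotientGroup.eq_one_iff (u * u)).1 (h1 u), by rw [h.card_eq, h2, pow_succ _ 2],
      u, v, huv⟩

theorem case2 (hs : ∀ x, s x * s x = x) (hF : ∃ x, s x ≠ x) [(fx α).Normal]
    {α' : Q ⧸ fx α →* Q ⧸ fx α} {k' : F → Q ⧸ fx α →* Q ⧸ fx α} {w : Q} (hα : ∀ g : Q, α' g = α g)
    (hk : ∀ c (g : Q), k' c g = k c g) (hw : w⁻¹ * α w = a 1) (h' : St α' k' fun y => k y w)
    (p : Sp F α') : False := by
  have hw' : ∀ y, (k y w)⁻¹ * α (k y w) = a y := fun y => by rw [h.kd, hw, h.act, mul_one]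
  have l1 : ∀ {g : Q}, α' g = g → ∃ y z, g = k y w * a z := fun hg => by
    obtain ⟨y, hy⟩ := (h'.fix _).1 hg
    exact ⟨y, h.lift hy⟩
  have wc : ∀ y g, α ⁅k y w, g⁆ = ⁅k y w, g⁆ := fun y g =>
    (QuotientGroup.eq_one_iff ⁅k y w, g⁆).1 (commutatorElement_eq_one_iff_mul_comm.2 (h'.ac y g))
  have wa : ∀ x y, ∃ z, k (x + y) w = k x w * k y w * a z := fun x y => h.lift (h'.a_add x y).symm
  have ww : ∀ x y, ⁅k x w, k y w⁆ = 1 := fun x y => by
    rw [h.bil hs (b := 0) (by simp [h.a0]) (fun _ _ => wc _ _)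
      (fun x x' y => by obtain ⟨c, e⟩ := wa x x'; rw [e, (cm_cen _ _ (h.cen c)).1])
      (fun x y y' => by obtain ⟨c, e⟩ := wa y y'; rw [e, (cm_cen _ _ (h.cen c)).2]), mul_zero, h.a0]
  have kill : ∀ x g y z, ⁅k x w, g * (k y w * a z)⁆ = ⁅k x w, g⁆ := fun x g y z => by
    rw [← mul_assoc, (cm_cen _ _ (h.cen z)).2, cmr _ (h.le_cen (wc _ _)), ww, mul_one]
  obtain ⟨τ, hτ⟩ := h.exists_coord (f := fun g => ⁅w, g⁆) fun g => by simpa [h.k1] using wc 1 g
  have t1 : ∀ g x y, ⁅k x w, k y g⁆ = a (s x * s y * τ g) := fun g =>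
    h.bil hs (hτ g).symm (fun _ _ => wc _ _)
      (fun x x' y => by obtain ⟨c, e⟩ := wa x x'; rw [e, (cm_cen _ _ (h.cen c)).1])
      (fun x y y' => by
        obtain ⟨c, e⟩ := h'.sp_add hs p y y' g
        rw [hk, hk, hk, ← QuotientGroup.mk_mul, ← QuotientGroup.mk_mul] at e
        obtain ⟨z, e⟩ := h.lift e.symm
        rw [e, mul_assoc, kill])
  obtain ⟨β, hβ⟩ := h'.exists_coord (f := fun q : Q × Q => ⁅(q.1 : Q ⧸ fx α), q.2⁆) fun q => p.cm _ _
  have t2 : ∀ g l m y, ⁅⁅g, l⁆, k y m⁆ = a (s (β (g, l)) * s y * τ m) := fun g l m y => by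
    obtain ⟨z, e⟩ := h.lift (v := ⁅g, l⁆) (hβ (g, l))
    rw [e, (cm_cen _ _ (h.cen z)).1, t1]
  have t3 : ∀ g l m n : Q, ⁅⁅g, l⁆, n * m * n⁻¹⁆ = ⁅⁅g, l⁆, m⁆ := fun g l m n => by
    obtain ⟨z, e⟩ := h.lift (v := ⁅g, l⁆) (hβ (g, l))
    obtain ⟨z', e'⟩ := h.lift (v := ⁅m⁻¹, n⁆) (hβ (m⁻¹, n))
    rw [e, (cm_cen _ _ (h.cen z)).1, (cm_cen _ _ (h.cen z)).1,
      show n * m * n⁻¹ = m * ⁅m⁻¹, n⁆ by rw [commutatorElement_def]; group, e', kill]
  have βk : ∀ g l x y, β (k x g, k y l) = s x * s y * β (g, l) := fun g l x y =>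
    h'.a_inj ((hβ _).trans (h'.sp_cm hs p (hβ (g, l)).symm x y ▸ by rw [hk, hk]))
  have jac : ∀ g l m x, s (β (g, l)) * s x * τ m + s (s x * β (l, m)) * τ g + s (s x * β (m, g)) * τ l = 0 :=
    fun g l m x => by
    have := commutatorElement_commutatorElement_conj_mul g l (k x m)
    have e1 := βk l m 1 x
    have e2 := βk m g x 1
    have e3 := t2 l (k x m) g 1
    have e4 := t2 (k x m) g l 1
    simp only [h.k1, map_one, one_mul, mul_one] at e1 e2 e3 e4
    rwa [t3, t3, t3, t2, e3, e4, e1, e2, ← h.a_add, ← h.a_add, h.a_eq_one] at this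
  have τ0 : ∀ m, τ m = 0 := fun m => by
    obtain ⟨u, v, huv⟩ := p.na
    induction u using QuotientGroup.induction_on with | _ u =>
    induction v using QuotientGroup.induction_on with | _ v =>
    have hb : s (β (u, v)) ≠ 0 := by
      rw [map_ne_zero]
      exact fun e => huv ((hβ (u, v)).symm.trans (h'.a_eq_one.2 e))
    obtain ⟨x, hx⟩ := hF
    have e1 := jac u v m 1
    have e2 := jac u v m (x * x)
    have sx : s (x * x) = x := by rw [map_mul, hs]
    simp only [map_one, one_mul, mul_one, sx, map_mul s x] at e1 e2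
    have : (x - s x) * (s (β (u, v)) * τ m) = 0 := by linear_combination e2 - s x * e1
    exact (mul_eq_zero.1 ((mul_eq_zero.1 this).resolve_left (sub_ne_zero.2 hx.symm))).resolve_left hb
  have wz : ∀ {g : Q}, α' g = g → g ∈ center Q := fun hg => by
    obtain ⟨y, z, rfl⟩ := l1 hg
    refine mul_mem (mem_center_iff.2 fun g => Eq.symm ?_) (h.cen z)
    have := t1 g y 1
    rwa [τ0, mul_zero, h.a0, h.k1, commutatorElement_eq_one_iff_mul_comm] at this
  have fx' : ∀ g : Q, α' g = g ↔ ∃ y, g⁻¹ * α g = a y := fun g => by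
    rw [hα, eq_comm, QuotientGroup.eq, h.mem]; simp only [eq_comm]
  obtain ⟨g, hg⟩ : ∃ g : Q, α' (g⁻¹ * α g : Q) ≠ (g⁻¹ * α g : Q) := by
    by_contra hne
    push Not at hne
    haveI := h'.normal
    obtain ⟨u, v, huv⟩ := p.na
    obtain ⟨α2, k2, w2, hα2, -, -, h2⟩ := h'.quot (h'.ne_of huv)
    have : fx α2 = ⊤ := eq_top_iff.2 fun g _ => by
      induction g using QuotientGroup.induction_on with | _ g =>
      induction g using QuotientGroup.induction_on with | _ g =>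
      refine (hα2 g).trans (QuotientGroup.eq.2 ?_).symm
      rw [hα]
      exact hne g
    have c := p.card
    rw [h'.card_eq, ← card_top, ← this, h2.card] at c
    have := Fintype.one_lt_card (α := F)
    nlinarith
  apply hg
  obtain ⟨y0, hy⟩ : ∃ y0, y0 = g⁻¹ * α g := ⟨_, rfl⟩
  have i0 : α y0 = y0⁻¹ := by rw [hy, map_mul, map_inv, h.αα]; group
  rw [← hy, fx']
  suffices H : y0 * y0 * (y0 * y0) = 1 by
    obtain ⟨z, hz⟩ := (h.fix (y0 * y0)).1 (by
      rw [map_mul, i0, ← mul_inv_rev, inv_eq_of_mul_eq_one_right H])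
    exact ⟨z, by rw [i0, ← mul_inv_rev, ← hz, h.a_inv]⟩
  have g2 : g * g ∈ center Q := wz (p.sq g)
  obtain ⟨z, hz⟩ := (fx' (g * g)).1 (p.sq g)
  have c1 : ⁅α g, g⁻¹⁆ ∈ center Q := wz (p.cm (α g : Q) (g⁻¹ : Q))
  have c2 : ⁅α g, g⁻¹⁆ * ⁅α g, g⁻¹⁆ = 1 := by
    rw [← cmr _ c1, ← mul_inv_rev, commutatorElement_eq_one_iff_mul_comm]
    exact mem_center_iff.1 (inv_mem g2) _
  have : y0 * y0 = a z * ⁅α g, g⁻¹⁆ := by
    rw [← hz, mem_center_iff.1 c1, map_mul, hy]
    calc _ = g⁻¹ * ⁅α g, g⁻¹⁆ * (g⁻¹ * α g * α g) := by rw [commutatorElement_def]; group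
      _ = _ := by rw [mem_center_iff.1 c1]; simp only [mul_inv_rev, mul_assoc]
  rw [this, mul_assoc, ← mul_assoc ⁅_, _⁆, ← h.ac, mul_assoc, c2, mul_one, h.aa]

end St

theorem main {F : Type*} [Field F] [Fintype F] {s : F →+* F} (hs : ∀ x, s x * s x = x)
    (hF : ∃ x, s x ≠ x) (n : ℕ) : ∀ {Q : Type u} [Group Q] [Finite Q] {α : Q →* Q} {k : F → Q →* Q}
    {a : F → Q}, Nat.card Q = n → St α k a → (∃ u v : Q, ⁅u, v⁆ ≠ 1) → Sp F α := by
  induction n using Nat.strong_induction_on with | _ n ih =>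
  intro Q _ _ α k a hn h na
  haveI := h.normal
  obtain ⟨u, v, huv⟩ := id na
  obtain ⟨α', k', w, hα, hk, hw, h'⟩ := h.quot (h.ne_of huv)
  by_cases H : ∃ u v : Q ⧸ fx α, ⁅u, v⁆ ≠ 1
  · refine (h.case2 hs hF hα hk hw h' (ih _ ?_ rfl h' H)).elim
    rw [← hn, h.card_eq]
    exact lt_mul_of_one_lt_right Nat.card_pos Fintype.one_lt_card
  · push Not at H
    exact h.case1 hs (fun u v => (QuotientGroup.eq_one_iff ⁅u, v⁆).1 (H u v)) na

end Cfsg.Lib.InvAut
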