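import Cfsg.Agent.Lib.Misc.Invol

/-! The graph on a class of involutions joining those whose product has odd order. -/

set_option autoImplicit false

namespace Cfsg.Lib

theorem odd_graph {G : Type*} [Group G] {t : G}
    (M : ∀ x y, IsConj t x → IsConj t y → ∃ z, IsConj t z ∧ Odd (orderOf (x * z)) ∧ Odd (orderOf (z * y)))
    {u v : G} (hu : IsConj t u) (hv : IsConj t v) (h2 : orderOf (u * v) = 2) (h2' : orderOf (v * u) = 2)
    (huv : u ≠ v) :
    (SimpleGraph.fromRel fun x y : {x : G // IsConj t x} => Odd (orderOf (x.1 * y.1))).Connected ∧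
      (SimpleGraph.fromRel fun x y : {x : G // IsConj t x} => Odd (orderOf (x.1 * y.1))).diam = 2 := by
  obtain ⟨Γ, hΓ⟩ : ∃ Γ, Γ = SimpleGraph.fromRel fun x y : {x : G // IsConj t x} =>
    Odd (orderOf (x.1 * y.1)) := ⟨_, rfl⟩
  have h1 : ∀ x y : {x : G // IsConj t x}, Odd (orderOf (x.1 * y.1)) → Γ.edist x y ≤ 1 := fun x y h => by
    rw [SimpleGraph.edist_le_one_iff_adj_or_eq, hΓ, SimpleGraph.fromRel_adj]
    tauto
  have hle : Γ.ediam ≤ 2 := SimpleGraph.ediam_le_of_edist_le fun x y => by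
    obtain ⟨z, hz, e1, e2⟩ := M x y x.2 y.2
    exact (SimpleGraph.edist_triangle (v := ⟨z, hz⟩)).trans
      ((add_le_add (h1 _ _ e1) (h1 _ _ e2)).trans (by norm_num))
  have hge : 2 ≤ Γ.ediam := le_trans (by
    by_contra hlt
    have : Γ.edist ⟨u, hu⟩ ⟨v, hv⟩ ≤ 1 := Order.le_of_lt_succ (not_le.1 hlt)
    rw [SimpleGraph.edist_le_one_iff_adj_or_eq, hΓ, SimpleGraph.fromRel_adj] at this
    simp only [h2, h2', Subtype.mk.injEq, huv, or_false, or_self] at this
    exact absurd this.2 (by decide)) (SimpleGraph.edist_le_ediam (u := ⟨u, hu⟩) (v := ⟨v, hv⟩))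
  haveI : Nonempty {x : G // IsConj t x} := ⟨⟨u, hu⟩⟩
  rw [← hΓ]
  refine ⟨SimpleGraph.connected_of_ediam_ne_top (ne_top_of_le_ne_top (by simp) hle), ?_⟩
  rw [SimpleGraph.diam, le_antisymm hle hge]; rfl

end Cfsg.Lib
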